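import Groth.Agent.Gaga.H416.Counit
import Groth.Agent.Gaga.H976.Quot
import Groth.Agent.Gaga.H976.IdealAt
import Groth.Agent.Gaga.H127.PushStalk
import Groth.Agent.Gaga.H980.QuotAlg
import Groth.Agent.Gaga.H297.HolMod
import Groth.Agent.An.H863.PtsBasic
import Groth.Agent.Gaga.H703.AlgPull

/-!
# An analytic sheaf is algebraic if its direct image is

`q : E ⟶ P` over `ℂ`, closed on complex points, `I` an ideal sheaf on `E` such that `q` is injective
on the support of `I` and `O_{P,q z} → O_{E,z} / I_z` is surjective: an analytic sheaf `N` on `E`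
killed by `I` is algebraic if `q_* N` is.
-/

set_option autoImplicit false
set_option backward.isDefEq.respectTransparency.types false

open CategoryTheory AlgebraicGeometry TopologicalSpace Opposite

noncomputable section

namespace Groth.Agent.Gaga.H416.AlgQ

open Groth.Agent.Gaga.H975.ModSec Groth.Agent.Gaga.H986.Stalk Groth.Agent.Gaga.H986.Pull
open Groth.Agent.Gaga.H976.Defs Groth.Agent.Gaga.H976.Defs2 Groth.Agent.Gaga.H976.Quot
open Groth.Agent.Gaga.H416.Counit

variable {E P : Scheme.{0}} [E.Over An.SC] [P.Over An.SC]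

/-- The stalks of a sheaf killed by `I` vanish outside the support of `I`. -/
theorem subsingleton_of_kills {I : E.IdealSheafData} {N : An.AnMod E} (hN : Kills I N)
    (y : An.Pts E) (hy : y.pt ∉ I.support) : Subsingleton (St (R := An.hol E) N y) := by
  have h1 : (1 : StO (An.hol E) y) ∈ idealAt I y := by
    rw [Groth.Agent.Gaga.H976.IdealAt.idealAt_eq_top I y hy]
    trivial
  have h2 : ∀ t : St (R := An.hol E) N y, t = 0 := fun t => by
    rw [← one_smul (StO (An.hol E) y) t]
    exact hN y 1 h1 t
  exact ⟨fun a b => (h2 a).trans (h2 b).symm⟩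

/-- [ALGQ], from the inverse image of algebraic sheaves. -/
theorem alg_of_alg_push_of
    [LocallyOfFiniteType (E ↘ An.SC)] [LocallyOfFiniteType (P ↘ An.SC)] [IsReduced E]
    [IsLocallyNoetherian E]
    (q : E ⟶ P) [q.IsOver An.SC] {L : An.AnMod P ⥤ An.AnMod E} (adj : L ⊣ An.anPushMap q)
    (hL : ∀ {M : An.AnMod P}, Alg M → Alg (L.obj M))
    (I : E.IdealSheafData)
    (hcl : ∀ C : Set (An.top E), IsClosed C → IsClosed (An.topMap q '' C))
    (hinj : Set.InjOn q (I.support : Set E))
    (hs : ∀ z ∈ I.support, ∀ a : E.presheaf.stalk z, ∃ b : P.presheaf.stalk (q z),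
        a - (q.stalkMap z).hom b ∈ stIdeal I z)
    (N : An.AnMod E) (hN : Kills I N) (h : Alg ((An.anPushMap q).obj N)) : Alg N := by
  obtain ⟨H, hH, ⟨e⟩⟩ := hL h
  obtain ⟨H', hH', π, hπ⟩ := Groth.Agent.Gaga.H980.QuotAlg.exists_quotient I H hH
  let adj' : L ⊣ push (T := An.top P) (T1 := An.top E) (R := An.hol P) (R1 := An.hol E)
    (f := An.topMap q) (An.anMapRingHom q) := adj
  let c : L.obj ((An.anPushMap q).obj N) ⟶ N := ct adj' N
  have key : ∀ y : An.Pts E, Function.Surjective (stMap (R := An.hol E) c y) ∧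
      LinearMap.ker (stMap (R := An.hol E) c y) = idealAt I y • ⊤ := by
    intro y
    by_cases hy : y.pt ∈ I.support
    · have hb : Function.Bijective (pushSt (R := An.hol P) (R1 := An.hol E) (f := An.topMap q)
          (An.anMapRingHom q) N y) := by
        refine Groth.Agent.Gaga.H127.PushStalk.pushSt_bijective (R := An.hol P) (R1 := An.hol E)
          (f := An.topMap q) (An.anMapRingHom q) N {y : An.top E | (show An.Pts E from y).pt ∈ I.support}
          (I.support.isClosed.preimage An.Pts.continuous_pt)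
          (fun y' hy' => subsingleton_of_kills hN y' hy')
          (fun C hC => hcl _ (hC.inter (I.support.isClosed.preimage An.Pts.continuous_pt))) y ?_
        intro y' hy' hyy'
        apply Groth.Agent.An.H863.PtsBasic.pt_injective
        refine hinj hy' hy ?_
        have h1 := congrArg (An.Pts.pt (X := P)) (show An.Pts.map q y' = An.Pts.map q y from hyy')
        rwa [An.Pts.pt_map, An.Pts.pt_map] at h1
      refine ⟨stMap_ct_surjective (R := An.hol P) (R1 := An.hol E) adj' N y hb.2, ?_⟩
      exact ker_stMap_ct (R := An.hol P) (R1 := An.hol E) adj' N y (idealAt I y) (hN y)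
        (fun a => Groth.Agent.Gaga.H297.HolMod.hol_surjective_mod q I y (hs y.pt hy) a) hb.1
    · have h0 : Subsingleton (St (R := An.hol E) N y) := subsingleton_of_kills hN y hy
      refine ⟨fun t => ⟨0, Subsingleton.elim _ _⟩, ?_⟩
      rw [Groth.Agent.Gaga.H976.IdealAt.idealAt_eq_top I y hy, Submodule.top_smul]
      exact LinearMap.ker_eq_top.2 (LinearMap.ext fun t => Subsingleton.elim _ _)
  have he : ∀ y : An.Pts E, Function.Bijective (stMap (R := An.hol E) e.hom y) := fun y =>
    (isIso_iff_stMap (R := An.hol E) e.hom).1 inferInstance y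
  obtain ⟨i, -⟩ := nonempty_iso_of_ker_eq (R := An.hol E) π (e.hom ≫ c) (fun y => (hπ y).1)
    (fun y => by
      intro t
      obtain ⟨s, rfl⟩ := (key y).1 t
      obtain ⟨r, rfl⟩ := (he y).2 s
      exact ⟨r, stMap_comp_apply (R := An.hol E) e.hom c y r⟩)
    (fun y => by
      refine (hπ y).2.trans ?_
      let l := LinearEquiv.ofBijective (stMap (R := An.hol E) e.hom y) (he y)
      ext t
      have h1 : t ∈ LinearMap.ker (stMap (R := An.hol E) (e.hom ≫ c) y) ↔
          l t ∈ LinearMap.ker (stMap (R := An.hol E) c y) := by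
        rw [LinearMap.mem_ker, LinearMap.mem_ker, stMap_comp_apply]
        rfl
      rw [h1, (key y).2]
      constructor
      · intro ht
        have h2 : l t ∈ Submodule.map l.toLinearMap (idealAt I y • ⊤) := ⟨t, ht, rfl⟩
        rw [Submodule.map_smul''] at h2
        exact Submodule.smul_mono le_rfl le_top h2
      · intro ht
        have h2 : l.symm (l t) ∈ Submodule.map l.symm.toLinearMap (idealAt I y • ⊤) := ⟨l t, ht, rfl⟩
        rw [Submodule.map_smul'', LinearEquiv.symm_apply_apply] at h2
        exact Submodule.smul_mono le_rfl le_top h2)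
  exact ⟨H', hH', ⟨i⟩⟩

/-- [ALGQ], from the inverse image of algebraic sheaves ([LF]) for one morphism. -/
theorem alg_of_alg_push_of_lf
    [LocallyOfFiniteType (E ↘ An.SC)] [LocallyOfFiniteType (P ↘ An.SC)] [IsReduced E]
    [IsLocallyNoetherian E]
    (q : E ⟶ P) [q.IsOver An.SC]
    (hLF : ∀ {L : An.AnMod P ⥤ An.AnMod E} (_ : L ⊣ An.anPushMap q) {M : An.AnMod P},
      Alg M → Alg (L.obj M))
    (I : E.IdealSheafData)
    (hcl : ∀ C : Set (An.top E), IsClosed C → IsClosed (An.topMap q '' C))
    (hinj : Set.InjOn q (I.support : Set E))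
    (hs : ∀ z ∈ I.support, ∀ a : E.presheaf.stalk z, ∃ b : P.presheaf.stalk (q z),
        a - (q.stalkMap z).hom b ∈ stIdeal I z)
    (N : An.AnMod E) (hN : Kills I N) (h : Alg ((An.anPushMap q).obj N)) : Alg N :=
  alg_of_alg_push_of q (SheafOfModules.pullbackPushforwardAdjunction (F := An.mapF q)
    (J := An.JA P) (K := An.JA E) (An.anMapRingHom q)) (fun h => hLF
      (SheafOfModules.pullbackPushforwardAdjunction (F := An.mapF q)
        (J := An.JA P) (K := An.JA E) (An.anMapRingHom q)) h) I hcl hinj hs N hN h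

/-- [ALGQ] a sheaf killed by an ideal modulo which `q` is an immersion is algebraic if its direct
image is. -/
theorem alg_of_alg_push
    [LocallyOfFiniteType (E ↘ An.SC)] [LocallyOfFiniteType (P ↘ An.SC)] [IsReduced E] [IsReduced P]
    [IsLocallyNoetherian E] [IsLocallyNoetherian P]
    (q : E ⟶ P) [q.IsOver An.SC] (I : E.IdealSheafData)
    (hcl : ∀ C : Set (An.top E), IsClosed C → IsClosed (An.topMap q '' C))
    (hinj : Set.InjOn q (I.support : Set E))
    (hs : ∀ z ∈ I.support, ∀ a : E.presheaf.stalk z, ∃ b : P.presheaf.stalk (q z),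
        a - (q.stalkMap z).hom b ∈ stIdeal I z)
    (N : An.AnMod E) (hN : Kills I N) (h : Alg ((An.anPushMap q).obj N)) : Alg N :=
  alg_of_alg_push_of_lf q (fun adj _ h => Groth.Agent.Gaga.H703.AlgPull.alg_pull q adj h)
    I hcl hinj hs N hN h

end Groth.Agent.Gaga.H416.AlgQ
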