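import Groth.Agent.Gaga.H976.Defs

/-!
# The stalks of the counit `L push N ⟶ N`

`f : T1 ⟶ T` continuous, `φ : R ⟶ f_* R1`, `adj : L ⊣ push φ`, `N` a sheaf of `R1`-modules, `J` an
ideal of `R1_y` killing `N_y` modulo which `R_{f y} → R1_y` is surjective, `(f_* N)_{f y} ≅ N_y`:
then `(L f_* N)_y → N_y` is surjective with kernel `J (L f_* N)_y`.
-/

set_option autoImplicit false

open CategoryTheory AlgebraicGeometry TopologicalSpace Opposite

noncomputable section

namespace Groth.Agent.Gaga.H416.Counit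

open Groth.Agent.Gaga.H975.ModSec Groth.Agent.Gaga.H986.Stalk Groth.Agent.Gaga.H986.Pull
open Groth.Agent.Gaga.H976.Defs

variable {T T1 : TopCat.{0}} {f : T1 ⟶ T} {R : TopCat.Sheaf CommRingCat.{0} T}
  {R1 : TopCat.Sheaf CommRingCat.{0} T1}
  [(Opens.map f).IsContinuous (Opens.grothendieckTopology T)
    (Opens.grothendieckTopology T1)]
  {φ : ringSheaf R ⟶ ((Opens.map f).sheafPushforwardContinuous RingCat.{0}
    (Opens.grothendieckTopology T) (Opens.grothendieckTopology T1)).obj (ringSheaf R1)}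
  {L : Mod R ⥤ Mod R1} (adj : L ⊣ push φ)

/-- The counit. -/
def ct (N : Mod R1) : L.obj ((push φ).obj N) ⟶ N := lft adj (𝟙 ((push φ).obj N))

theorem stMap_ct_can (N : Mod R1) (y : T1) (t : St ((push φ).obj N) (f y)) :
    stMap (ct adj N) y (can adj ((push φ).obj N) y t) = pushSt φ N y t := by
  obtain ⟨V, hV, s, rfl⟩ := exists_gm _ _ t
  rw [can_gm, stMap_gm, pushSt_gm, ct, app_lft_us]
  rfl

theorem stMap_ct_surjective (N : Mod R1) (y : T1) (h : Function.Surjective (pushSt φ N y)) :
    Function.Surjective (stMap (ct adj N) y) := by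
  intro t
  obtain ⟨m, rfl⟩ := h t
  exact ⟨can adj _ y m, stMap_ct_can adj N y m⟩

/-- Modulo `J` every element of the stalk of the inverse image comes from the stalk of `M`. -/
theorem exists_can_add (M : Mod R) (y : T1) (J : Ideal (StO R1 y))
    (hs : ∀ a : StO R1 y, ∃ b : StO R (f y), a - stR φ y b ∈ J) (u : St (L.obj M) y) :
    ∃ (m : St M (f y)) (v : St (L.obj M) y),
      v ∈ J • (⊤ : Submodule (StO R1 y) (St (L.obj M) y)) ∧ u = can adj M y m + v := by
  have hu : u ∈ Submodule.span (StO R1 y) (Set.range (can adj M y)) := by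
    rw [span_range_can adj M y]
    trivial
  induction hu using Submodule.span_induction with
  | mem x hx =>
    obtain ⟨m, rfl⟩ := hx
    exact ⟨m, 0, Submodule.zero_mem _, (add_zero _).symm⟩
  | zero => exact ⟨0, 0, Submodule.zero_mem _, by rw [map_zero, add_zero]⟩
  | add x x' _ _ hx hx' =>
    obtain ⟨m, v, hv, rfl⟩ := hx
    obtain ⟨m', v', hv', rfl⟩ := hx'
    exact ⟨m + m', v + v', Submodule.add_mem _ hv hv', by rw [map_add]; abel⟩
  | smul a x _ hx =>
    obtain ⟨m, v, hv, rfl⟩ := hx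
    obtain ⟨b, hb⟩ := hs a
    refine ⟨b • m, (a - stR φ y b) • can adj M y m + a • v, Submodule.add_mem _
      (Submodule.smul_mem_smul hb trivial) (Submodule.smul_mem _ a hv), ?_⟩
    rw [can_smul, smul_add, sub_smul]
    abel

theorem ker_stMap_ct (N : Mod R1) (y : T1) (J : Ideal (StO R1 y))
    (hJ : ∀ b ∈ J, ∀ t : St N y, b • t = 0)
    (hs : ∀ a : StO R1 y, ∃ b : StO R (f y), a - stR φ y b ∈ J)
    (h : Function.Injective (pushSt φ N y)) :
    LinearMap.ker (stMap (ct adj N) y) = J • ⊤ := by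
  have hle : J • (⊤ : Submodule (StO R1 y) (St (L.obj ((push φ).obj N)) y)) ≤
      LinearMap.ker (stMap (ct adj N) y) := by
    rw [Submodule.smul_le]
    intro b hb t _
    rw [LinearMap.mem_ker, map_smul]
    exact hJ b hb _
  refine le_antisymm (fun u hu => ?_) hle
  obtain ⟨m, v, hv, rfl⟩ := exists_can_add adj ((push φ).obj N) y J hs u
  have hv' : stMap (ct adj N) y v = 0 := hle hv
  rw [LinearMap.mem_ker, map_add, hv', add_zero, stMap_ct_can] at hu
  have hm : m = 0 := h (by rw [hu, map_zero])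
  rw [hm, map_zero, zero_add]
  exact hv

end Groth.Agent.Gaga.H416.Counit
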